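import Mathlib.GroupTheory.RegularWreathProduct
import Mathlib.GroupTheory.Solvable
import Mathlib.GroupTheory.FiniteAbelian.Duality
import Mathlib.GroupTheory.SpecificGroups.Cyclic
import Mathlib.RingTheory.RootsOfUnity.Complex
import Mathlib.RingTheory.RootsOfUnity.AlgebraicallyClosed
import Mathlib.Analysis.Complex.Polynomial.Basic
import Mathlib.RingTheory.IntegralDomain

/-!
# Groups with an orthogonal, translation invariant group of functions

A finite group `E` together with a group `F` of `|E|` functions to the `N`-th roots of unity,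
normalised at `1`, pairwise orthogonal and stable under normalised translations. Such pairs are
closed under regular wreath products by abelian groups of exponent dividing `N`, so every finite
solvable group embeds into one.
-/

set_option autoImplicit false
set_option linter.unusedSectionVars false
set_option linter.style.haveILetI false

namespace Cfsg.Agent.CentralEmbed

universe u

/-- An orthogonal translation-invariant group of normalised functions on `E`. -/
structure IsOrthFun (N : ℕ) (E : Type u) [Group E] [Fintype E] (F : Subgroup (E → ℂˣ)) : Prop where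
  one : ∀ f ∈ F, f 1 = 1
  pow : ∀ f ∈ F, ∀ x, f x ^ N = 1
  card : Nat.card F = Nat.card E
  transl : ∀ f ∈ F, ∀ g : E, (fun x => f (g * x) / f g) ∈ F
  orth : ∀ f ∈ F, f ≠ 1 → ∑ x, (f x : ℂ) = 0
  sep : ∀ a b : E, (∀ f ∈ F, f a = f b) → a = b

section wreath

variable {E : Type u} [Group E] [Fintype E] {Q : Type u} [CommGroup Q] [Fintype Q]
  {F : Subgroup (E → ℂˣ)}

/-- The function on `E ≀ᵣ Q` built from a family in `F` and a linear character of `Q`. -/
noncomputable def wreathFun (F : Subgroup (E → ℂˣ)) :
    (Q → F) × (Q →* ℂˣ) →* (E ≀ᵣ Q → ℂˣ) where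
  toFun a x := (∏ i, (a.1 i : E → ℂˣ) (x.left i)) * a.2 x.right
  map_one' := by funext x; simp
  map_mul' a b := by
    funext x
    simp only [Prod.fst_mul, Prod.snd_mul, Pi.mul_apply, Subgroup.coe_mul, MonoidHom.mul_apply,
      Finset.prod_mul_distrib]
    exact mul_mul_mul_comm _ _ _ _

theorem wreathFun_apply (a : (Q → F) × (Q →* ℂˣ)) (x : E ≀ᵣ Q) :
    wreathFun F a x = (∏ i, (a.1 i : E → ℂˣ) (x.left i)) * a.2 x.right := rfl

theorem wreathFun_injective {N : ℕ} (h : IsOrthFun N E F) :
    Function.Injective (wreathFun (Q := Q) F) := by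
  classical
  rw [injective_iff_map_eq_one]
  intro a ha
  refine Prod.ext (funext fun i => Subtype.ext (funext fun y => ?_)) (MonoidHom.ext fun q => ?_)
  · have := congrFun ha ⟨Function.update (fun _ => 1) i y, 1⟩
    rw [wreathFun_apply] at this
    simp only [map_one, mul_one] at this
    rw [Finset.prod_eq_single i] at this
    · simpa using this
    · intro j _ hj
      rw [Function.update_of_ne hj]
      exact h.one _ (a.1 j).2
    · simp
  · have := congrFun ha ⟨fun _ => 1, q⟩
    rw [wreathFun_apply] at this
    simp only [Pi.one_apply] at this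
    rw [Finset.prod_eq_one (fun j _ => h.one _ (a.1 j).2), one_mul] at this
    simpa using this

theorem isOrthFun_wreath {N : ℕ} (hN : N ≠ 0) (hQ : ∀ q : Q, q ^ N = 1) (h : IsOrthFun N E F)
    [Fintype (E ≀ᵣ Q)] :
    IsOrthFun N (E ≀ᵣ Q)
      (MonoidHom.range (G := (Q → F) × (Q →* ℂˣ)) (wreathFun (Q := Q) F)) where
  one := by
    rintro _ ⟨a, rfl⟩
    rw [wreathFun_apply]
    simp only [RegularWreathProduct.one_left, RegularWreathProduct.one_right, map_one, mul_one,
      Pi.one_apply]
    exact Finset.prod_eq_one fun j _ => h.one _ (a.1 j).2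
  pow := by
    rintro _ ⟨a, rfl⟩ x
    rw [wreathFun_apply, mul_pow, ← Finset.prod_pow, Finset.prod_eq_one, one_mul, ← map_pow,
      hQ, map_one]
    exact fun j _ => h.pow _ (a.1 j).2 _
  card := by
    haveI : NeZero N := ⟨hN⟩
    haveI : NeZero (Monoid.exponent Q) := ⟨Monoid.exponent_ne_zero_of_finite⟩
    haveI : HasEnoughRootsOfUnity ℂ (Monoid.exponent Q) := inferInstance
    rw [← Nat.card_congr (MonoidHom.ofInjective (wreathFun_injective h)).toEquiv, Nat.card_prod,
      Nat.card_fun, h.card, CommGroup.card_monoidHom_of_hasEnoughRootsOfUnity,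
      RegularWreathProduct.card]
  transl := by
    rintro _ ⟨a, rfl⟩ g
    refine ⟨(fun i => ⟨fun y => (a.1 (g.right * i) : E → ℂˣ) (g.left (g.right * i) * y) /
      (a.1 (g.right * i) : E → ℂˣ) (g.left (g.right * i)),
      h.transl _ (a.1 (g.right * i)).2 _⟩, a.2), ?_⟩
    funext x
    simp only [wreathFun_apply, RegularWreathProduct.mul_left, RegularWreathProduct.mul_right,
      Pi.mul_apply, map_mul]
    rw [Finset.prod_div_distrib]
    have h1 : ∏ i, (a.1 (g.right * i) : E → ℂˣ) (g.left (g.right * i) * x.left i) =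
        ∏ i, (a.1 i : E → ℂˣ) (g.left i * x.left (g.right⁻¹ * i)) :=
      Fintype.prod_equiv (Equiv.mulLeft g.right) _ _ fun i => by simp
    have h2 : ∏ i, (a.1 (g.right * i) : E → ℂˣ) (g.left (g.right * i)) =
        ∏ i, (a.1 i : E → ℂˣ) (g.left i) :=
      Fintype.prod_equiv (Equiv.mulLeft g.right) _ _ fun i => by simp
    rw [h1, h2, mul_div_mul_comm, mul_div_cancel_left]
  orth := by
    classical
    rintro _ ⟨a, rfl⟩ hne
    rw [← (RegularWreathProduct.equivProd E Q).symm.sum_comp, Fintype.sum_prod_type]
    simp only [wreathFun_apply, RegularWreathProduct.equivProd, Equiv.coe_fn_symm_mk,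
      Units.val_mul, Units.coe_prod]
    rw [← Finset.sum_mul_sum,
      ← Fintype.prod_sum fun (i : Q) (y : E) => (((a.1 i : E → ℂˣ) y : ℂˣ) : ℂ)]
    by_cases hφ : a.2 = 1
    · obtain ⟨i, hi⟩ : ∃ i, (a.1 i : E → ℂˣ) ≠ 1 := by
        by_contra hall
        push Not at hall
        refine hne ?_
        funext x
        simp [wreathFun_apply, hφ, hall]
      rw [Finset.prod_eq_zero (Finset.mem_univ i) (h.orth _ (a.1 i).2 hi), zero_mul]
    · rw [show ∑ q, ((a.2 q : ℂˣ) : ℂ) = 0 from
        sum_hom_units_eq_zero ((Units.coeHom ℂ).comp a.2)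
          (fun h0 => hφ (MonoidHom.ext fun q => Units.ext (DFunLike.congr_fun h0 q))), mul_zero]
  sep := by
    classical
    intro x y hxy
    refine RegularWreathProduct.ext (funext fun i => h.sep _ _ fun f hf => ?_) ?_
    · have := hxy _ ⟨(Pi.mulSingle i ⟨f, hf⟩, 1), rfl⟩
      simp only [wreathFun_apply, MonoidHom.one_apply, mul_one] at this
      rw [Finset.prod_eq_single i, Finset.prod_eq_single i] at this
      · simpa using this
      all_goals first
        | (intro j _ hj; simp [Pi.mulSingle_eq_of_ne hj])
        | simp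
    · haveI : NeZero (Monoid.exponent Q) := ⟨Monoid.exponent_ne_zero_of_finite⟩
      refine (CommGroup.forall_apply_eq_apply_iff (M := ℂ) Q).1 fun φ => ?_
      have := hxy _ ⟨((1 : Q → F), φ), rfl⟩
      simpa [wreathFun_apply] using this

end wreath

section embed

variable {G : Type u} [Group G] (K : Subgroup G) [K.Normal] {E : Type u} [Group E] (ι : K →* E)

theorem out_conj_mem (g : G) (i : G ⧸ K) :
    i.out⁻¹ * g * ((g : G ⧸ K)⁻¹ * i).out ∈ K := by
  rw [← QuotientGroup.eq_one_iff]
  simp only [QuotientGroup.mk_mul, QuotientGroup.mk_inv, QuotientGroup.out_eq']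
  group

/-- The universal embedding into the regular wreath product. -/
noncomputable def wreathEmbed : G →* E ≀ᵣ (G ⧸ K) where
  toFun g := ⟨fun i => ι ⟨_, out_conj_mem K g i⟩, (g : G ⧸ K)⟩
  map_one' := by
    refine RegularWreathProduct.ext (funext fun i => ?_) rfl
    show ι _ = 1
    convert map_one ι
    simp
  map_mul' g g' := by
    refine RegularWreathProduct.ext (funext fun i => ?_) rfl
    simp only [RegularWreathProduct.mul_left, Pi.mul_apply, ← map_mul]
    congr 1
    refine Subtype.ext ?_
    simp only [Subgroup.coe_mul, QuotientGroup.mk_mul, mul_inv_rev]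
    group

theorem wreathEmbed_injective (hι : Function.Injective ι) :
    Function.Injective (wreathEmbed K ι) := by
  rw [injective_iff_map_eq_one]
  intro g hg
  have hr : (g : G ⧸ K) = 1 := congrArg RegularWreathProduct.right hg
  have hl := congrFun (congrArg RegularWreathProduct.left hg) (1 : G ⧸ K)
  have := congrArg Subtype.val (hι (hl.trans (map_one ι).symm))
  simp only [hr, inv_one, one_mul, OneMemClass.coe_one] at this
  have h2 : g = (1 : G ⧸ K).out * ((1 : G ⧸ K).out)⁻¹ := by
    rw [← mul_right_inj ((1 : G ⧸ K).out)⁻¹, ← mul_left_inj ((1 : G ⧸ K).out), this]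
    group
  simpa using h2

end embed

theorem exists_normal_prime_index (G : Type u) [Group G] [Finite G] [Nontrivial G]
    (hG : Group.IsSolvable G) :
    ∃ (K : Subgroup G) (_ : K.Normal), K.index.Prime ∧ ∀ a b : G ⧸ K, a * b = b * a := by
  haveI := hG
  have hC : commutator G ≠ ⊤ := (Group.IsSolvable.commutator_lt_top_of_nontrivial G).ne
  obtain ⟨K, hK, hle⟩ := (eq_top_or_exists_le_coatom (commutator G)).resolve_left hC
  have hn : K.Normal := Subgroup.Normal.of_commutator_le G hle
  have hcomm : ∀ a b : G ⧸ K, a * b = b * a := by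
    intro a b
    induction a using QuotientGroup.induction_on with
    | H a =>
      induction b using QuotientGroup.induction_on with
      | H b =>
        rw [← QuotientGroup.mk_mul, ← QuotientGroup.mk_mul, QuotientGroup.eq]
        refine hle ?_
        have := Subgroup.commutator_mem_commutator (Subgroup.mem_top b⁻¹) (Subgroup.mem_top a⁻¹)
        simpa [commutator_def, commutatorElement_def, mul_assoc] using this
  letI : CommGroup (G ⧸ K) := { (inferInstance : Group (G ⧸ K)) with mul_comm := hcomm }
  haveI : Nontrivial (G ⧸ K) := QuotientGroup.nontrivial_iff.2 hK.1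
  haveI : IsSimpleGroup (G ⧸ K) := by
    refine ⟨fun H _ => ?_⟩
    rcases hK.le_iff.1 (QuotientGroup.le_comap_mk' K H) with h | h
    · refine Or.inr ?_
      rw [← Subgroup.map_comap_eq_self_of_surjective (QuotientGroup.mk'_surjective K) H, h,
        Subgroup.map_top_of_surjective _ (QuotientGroup.mk'_surjective K)]
    · refine Or.inl ?_
      have := congrArg (Subgroup.map (QuotientGroup.mk' K)) h
      rwa [Subgroup.map_comap_eq_self_of_surjective (QuotientGroup.mk'_surjective K),
        QuotientGroup.map_mk'_self] at this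
  refine ⟨K, hn, ?_, hcomm⟩
  rw [Subgroup.index_eq_card]
  exact IsSimpleGroup.prime_card (α := G ⧸ K)

/-- Every finite solvable group embeds into a group with an orthogonal function group. -/
theorem exists_orthFun {N : ℕ} (hN : N ≠ 0) :
    ∀ (n : ℕ) (G : Type u) [Group G] [Finite G], Nat.card G = n → Group.IsSolvable G →
      (∀ p : ℕ, p.Prime → p ∣ Nat.card G → p ∣ N) →
      ∃ (E : Type u) (_ : Group E) (_ : Fintype E) (F : Subgroup (E → ℂˣ)) (ι : G →* E),
        IsOrthFun N E F ∧ Function.Injective ι ∧
          ∀ p : ℕ, p.Prime → p ∣ Nat.card E → p ∣ Nat.card G := by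
  intro n
  induction n using Nat.strong_induction_on with
  | _ n ih =>
    intro G _ _ hn hsolv hdvd
    rcases subsingleton_or_nontrivial G with hs | hnt
    · refine ⟨PUnit.{u + 1}, inferInstance, inferInstance, ⊥, 1, ⟨?_, ?_, ?_, ?_, ?_, ?_⟩,
        fun a b _ => Subsingleton.elim a b, ?_⟩
      · intro f hf; simp [Subgroup.mem_bot.1 hf]
      · intro f hf x; simp [Subgroup.mem_bot.1 hf]
      · simp
      · intro f hf g
        rw [Subgroup.mem_bot.1 hf, Subgroup.mem_bot]
        funext x; simp
      · intro f hf hne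
        exact absurd (Subgroup.mem_bot.1 hf) hne
      · intros; exact Subsingleton.elim _ _
      · intro p hp h
        exact absurd (Nat.dvd_one.1 (by simpa using h)) hp.ne_one
    · obtain ⟨K, hK, hprime, hcomm⟩ := exists_normal_prime_index G hsolv
      haveI := hsolv
      have hlt : Nat.card K < n := by
        rw [← hn, ← K.card_mul_index]
        exact lt_mul_of_one_lt_right Nat.card_pos hprime.one_lt
      have hKdvd : Nat.card K ∣ Nat.card G := Subgroup.card_subgroup_dvd_card K
      obtain ⟨E, _, _, F, ι, hF, hι, hprimes⟩ := ih _ hlt K rfl inferInstance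
        (fun p hp h => hdvd p hp (h.trans hKdvd))
      letI : CommGroup (G ⧸ K) := { (inferInstance : Group (G ⧸ K)) with mul_comm := hcomm }
      letI : Fintype (G ⧸ K) := Fintype.ofFinite _
      letI : Fintype (E ≀ᵣ (G ⧸ K)) := Fintype.ofFinite _
      have hidx : Nat.card (G ⧸ K) ∣ Nat.card G := by
        rw [← Subgroup.index_eq_card]; exact K.index_dvd_card
      have hQ : ∀ q : G ⧸ K, q ^ N = 1 := by
        intro q
        obtain ⟨c, hc⟩ : K.index ∣ N := hdvd _ hprime K.index_dvd_card
        rw [hc, pow_mul, Subgroup.index_eq_card, pow_card_eq_one', one_pow]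
      refine ⟨E ≀ᵣ (G ⧸ K), inferInstance, inferInstance, _, wreathEmbed K ι,
        isOrthFun_wreath hN hQ hF, wreathEmbed_injective K ι hι, fun p hp h => ?_⟩
      rw [RegularWreathProduct.card] at h
      rcases hp.dvd_mul.1 h with h | h
      · exact (hprimes p hp (hp.dvd_of_dvd_pow h)).trans hKdvd
      · exact h.trans hidx

end Cfsg.Agent.CentralEmbed
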