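import Cfsg.Prelude.Def_Characters
import Cfsg.Prelude.Def_Blocks
import Cfsg.Agent.CentralEmbed.OrthFun
import Cfsg.Agent.Char.Virtual
import Cfsg.Agent.CharInd.Induced
import Cfsg.Agent.CharInd.Linear
import Mathlib.GroupTheory.SemidirectProduct

/-!
# A fully ramified group from an orthogonal function group

For `IsOrthFun N E F` the semidirect product of the functions `c • f` (`c ^ N = 1`, `f ∈ F`) by `E`
acting by translations has cyclic centre of order `N` and a faithful character of degree `|E|`
vanishing off the centre.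
-/

set_option autoImplicit false
set_option linter.unusedSectionVars false
set_option linter.style.haveILetI false

open scoped ComplexConjugate

namespace Cfsg.Agent.CentralEmbed

universe u

variable {E : Type u} [Group E] [Fintype E] {N : ℕ} {F : Subgroup (E → ℂˣ)}

/-- Multiples of the functions in `F` by `N`-th roots of unity. -/
def scaled (N : ℕ) (F : Subgroup (E → ℂˣ)) : Subgroup (E → ℂˣ) where
  carrier := {f | f 1 ^ N = 1 ∧ (fun x => f x / f 1) ∈ F}
  one_mem' := ⟨by simp, by convert F.one_mem; simp⟩
  mul_mem' := by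
    rintro a b ⟨ha, ha'⟩ ⟨hb, hb'⟩
    refine ⟨by simp [mul_pow, ha, hb], ?_⟩
    convert F.mul_mem ha' hb' using 1
    funext x
    exact mul_div_mul_comm (a x) (b x) (a 1) (b 1)
  inv_mem' := by
    rintro a ⟨ha, ha'⟩
    refine ⟨by simp [inv_pow, ha], ?_⟩
    convert F.inv_mem ha' using 1
    funext x
    simp [div_eq_mul_inv, mul_comm]

theorem mem_scaled_iff {f : E → ℂˣ} :
    f ∈ scaled N F ↔ f 1 ^ N = 1 ∧ (fun x => f x / f 1) ∈ F := Iff.rfl

theorem translate_mem (h : IsOrthFun N E F) {f : E → ℂˣ} (hf : f ∈ scaled N F) (g : E) :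
    (fun x => f (g * x)) ∈ scaled N F := by
  obtain ⟨h1, h2⟩ := hf
  refine ⟨?_, ?_⟩
  · show f (g * 1) ^ N = 1
    have := h.pow _ h2 g
    rw [div_pow, h1, div_one] at this
    rwa [mul_one]
  · show (fun x => f (g * x) / f (g * 1)) ∈ F
    convert h.transl _ h2 g using 1
    funext x
    rw [mul_one, div_div_div_cancel_right]

/-- Left translation on `scaled N F`. -/
def translAut (h : IsOrthFun N E F) : E →* MulAut (scaled N F) where
  toFun g :=
    { toFun := fun f => ⟨fun x => (f : E → ℂˣ) (g⁻¹ * x), translate_mem h f.2 _⟩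
      invFun := fun f => ⟨fun x => (f : E → ℂˣ) (g * x), translate_mem h f.2 _⟩
      left_inv := fun f => Subtype.ext (funext fun x => by simp)
      right_inv := fun f => Subtype.ext (funext fun x => by simp)
      map_mul' := fun _ _ => rfl }
  map_one' := by ext f x; simp
  map_mul' a b := by ext f x; simp [mul_assoc]

theorem translAut_apply (h : IsOrthFun N E F) (g : E) (f : scaled N F) (x : E) :
    (translAut h g f : E → ℂˣ) x = (f : E → ℂˣ) (g⁻¹ * x) := rfl

/-- `scaled N F` as a product. -/
noncomputable def scaledEquiv (h : IsOrthFun N E F) : scaled N F ≃ rootsOfUnity N ℂ × F where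
  toFun f := (⟨(f : E → ℂˣ) 1, (mem_rootsOfUnity N _).2 f.2.1⟩, ⟨_, f.2.2⟩)
  invFun c := ⟨fun x => (c.1 : ℂˣ) * (c.2 : E → ℂˣ) x, by
    refine ⟨?_, ?_⟩
    · simpa [h.one _ c.2.2] using (mem_rootsOfUnity N _).1 c.1.2
    · convert c.2.2 using 1
      funext x
      simp [h.one _ c.2.2]⟩
  left_inv f := Subtype.ext (funext fun x => by simp)
  right_inv c := by
    refine Prod.ext (Subtype.ext ?_) (Subtype.ext (funext fun x => ?_))
    · simp [h.one _ c.2.2]
    · simp [h.one _ c.2.2]

theorem card_scaled [NeZero N] (h : IsOrthFun N E F) :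
    Nat.card (scaled N F) = N * Nat.card E := by
  rw [Nat.card_congr (scaledEquiv h), Nat.card_prod, h.card, Complex.card_rootsOfUnity]

theorem finite_scaled [NeZero N] (h : IsOrthFun N E F) : Finite (scaled N F) :=
  Nat.finite_of_card_ne_zero (by
    rw [card_scaled h]; exact mul_ne_zero (NeZero.ne N) Nat.card_pos.ne')

theorem const_mem {c : ℂˣ} (hc : c ^ N = 1) : (fun _ : E => c) ∈ scaled N F :=
  ⟨hc, by convert F.one_mem; simp⟩

/-- Every element of `F` lies in `scaled N F`. -/
theorem mem_scaled_of_mem (h : IsOrthFun N E F) {f : E → ℂˣ} (hf : f ∈ F) : f ∈ scaled N F :=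
  ⟨h.pow _ hf 1, by simpa [h.one _ hf] using hf⟩

abbrev Grp (h : IsOrthFun N E F) : Type u := scaled N F ⋊[translAut h] E

theorem mem_center_iff (h : IsOrthFun N E F) (g : Grp h) :
    g ∈ Subgroup.center (Grp h) ↔
      g.right = 1 ∧ ∀ x, (g.left : E → ℂˣ) x = (g.left : E → ℂˣ) 1 := by
  rw [Subgroup.mem_center_iff]
  constructor
  · intro hc
    have hr : g.right = 1 := by
      refine h.sep _ _ fun f hf => ?_
      have h1 := congrArg SemidirectProduct.left (hc (SemidirectProduct.inl ⟨f, mem_scaled_of_mem h hf⟩))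
      simp only [SemidirectProduct.mul_left, SemidirectProduct.left_inl,
        SemidirectProduct.right_inl, map_one, MulAut.one_apply] at h1
      rw [mul_comm, mul_left_cancel_iff] at h1
      have h2 := congrFun (congrArg Subtype.val h1) g.right
      simpa [translAut_apply] using h2
    refine ⟨hr, fun x => ?_⟩
    have h1 := congrArg SemidirectProduct.left (hc (SemidirectProduct.inr x))
    simp only [SemidirectProduct.mul_left, SemidirectProduct.left_inr,
      SemidirectProduct.right_inr, map_one, mul_one, one_mul] at h1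
    have h2 := congrFun (congrArg Subtype.val h1) x
    simpa [translAut_apply] using h2.symm
  · rintro ⟨hr, hconst⟩ k
    refine SemidirectProduct.ext (Subtype.ext (funext fun x => ?_)) (by simp [hr])
    simp only [SemidirectProduct.mul_left, hr, map_one, MulAut.one_apply, Subgroup.coe_mul,
      Pi.mul_apply, translAut_apply]
    rw [hconst (k.right⁻¹ * x), hconst x, mul_comm]

theorem card_center [NeZero N] (h : IsOrthFun N E F) :
    Nat.card (Subgroup.center (Grp h)) = N := by
  refine Eq.trans (Nat.card_congr ?_) (Complex.card_rootsOfUnity N)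
  refine
    { toFun := fun g => ⟨(g.1.left : E → ℂˣ) 1, (mem_rootsOfUnity N _).2 g.1.left.2.1⟩
      invFun := fun c => ⟨SemidirectProduct.inl ⟨fun _ => (c : ℂˣ),
          const_mem ((mem_rootsOfUnity N _).1 c.2)⟩, by simp [mem_center_iff]⟩
      left_inv := fun g => ?_
      right_inv := fun c => Subtype.ext rfl }
  obtain ⟨hr, hc⟩ := (mem_center_iff h _).1 g.2
  exact Subtype.ext (SemidirectProduct.ext (Subtype.ext (funext fun x => by simp [hc x]))
    (by simp [hr]))

/-- Evaluation at `1` on the normal subgroup of functions. -/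
noncomputable def evalOne (h : IsOrthFun N E F) :
    (SemidirectProduct.inl : scaled N F →* Grp h).range →* ℂˣ where
  toFun a := ((a : Grp h).left : E → ℂˣ) 1
  map_one' := rfl
  map_mul' a b := by
    have ha : (a : Grp h).right = 1 := by
      obtain ⟨_, hf⟩ := a.2
      rw [← hf]; simp
    simp [ha]

/-- The character induced from evaluation at `1`. -/
noncomputable def chi (h : IsOrthFun N E F) [Fintype (Grp h)] : Grp h → ℂ :=
  indFun (SemidirectProduct.inl : scaled N F →* Grp h).range (fun a => (evalOne h a : ℂ))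

theorem chi_inl [NeZero N] (h : IsOrthFun N E F) [Fintype (Grp h)] (f : scaled N F) :
    chi h (SemidirectProduct.inl f) = ∑ x, ((f : E → ℂˣ) x : ℂ) := by
  classical
  haveI := finite_scaled h
  letI : Fintype (scaled N F) := Fintype.ofFinite _
  have hcard : (Nat.card (scaled N F) : ℂ) ≠ 0 := Nat.cast_ne_zero.2 Nat.card_pos.ne'
  rw [chi, CharInd.indFun_apply, ← Nat.card_congr
    (MonoidHom.ofInjective SemidirectProduct.inl_injective).toEquiv,
    ← SemidirectProduct.equivProd.symm.sum_comp, Fintype.sum_prod_type, inv_mul_eq_iff_eq_mul₀ hcard]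
  have hval : ∀ (a : scaled N F) (x : E), extendByZero _ (fun a => (evalOne h a : ℂ))
      ((SemidirectProduct.equivProd.symm (a, x) : Grp h)⁻¹ * SemidirectProduct.inl f *
        SemidirectProduct.equivProd.symm (a, x)) = ((f : E → ℂˣ) x : ℂ) := by
    intro a x
    have he : (SemidirectProduct.equivProd.symm (a, x) : Grp h)⁻¹ * SemidirectProduct.inl f *
        SemidirectProduct.equivProd.symm (a, x) = SemidirectProduct.inl (translAut h x⁻¹ f) := by
      refine SemidirectProduct.ext ?_ ?_
      · simp [SemidirectProduct.equivProd, mul_comm]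
      · simp [SemidirectProduct.equivProd]
    rw [he, CharInd.extendByZero_mem _ _ (MonoidHom.mem_range.2 ⟨_, rfl⟩)]
    show (((translAut h x⁻¹ f : E → ℂˣ) 1 : ℂˣ) : ℂ) = _
    rw [translAut_apply]
    simp
  simp only [hval]
  rw [Finset.sum_const, Finset.card_univ, ← Nat.card_eq_fintype_card, nsmul_eq_mul]

theorem chi_of_right_ne (h : IsOrthFun N E F) [Fintype (Grp h)] {g : Grp h} (hg : g.right ≠ 1) :
    chi h g = 0 := by
  refine CharInd.indFun_eq_zero_of_forall _ _ fun x hx => ?_
  obtain ⟨a, ha⟩ := hx
  have := congrArg SemidirectProduct.right ha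
  simp only [SemidirectProduct.right_inl, SemidirectProduct.mul_right,
    SemidirectProduct.inv_right] at this
  refine hg ?_
  calc g.right = x.right * (x.right⁻¹ * g.right * x.right) * x.right⁻¹ := by group
    _ = 1 := by rw [← this]; simp

theorem chi_center [NeZero N] (h : IsOrthFun N E F) [Fintype (Grp h)] {g : Grp h}
    (hg : g ∈ Subgroup.center (Grp h)) :
    chi h g = (Nat.card E : ℂ) * ((g.left : E → ℂˣ) 1 : ℂ) := by
  obtain ⟨hr, hc⟩ := (mem_center_iff h g).1 hg
  have hgi : g = SemidirectProduct.inl g.left :=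
    SemidirectProduct.ext rfl (by simp [hr])
  conv_lhs => rw [hgi, chi_inl]
  simp [hc, Finset.sum_const, Nat.card_eq_fintype_card]

theorem chi_not_center [NeZero N] (h : IsOrthFun N E F) [Fintype (Grp h)] {g : Grp h}
    (hg : g ∉ Subgroup.center (Grp h)) : chi h g = 0 := by
  by_cases hr : g.right = 1
  · have hgi : g = SemidirectProduct.inl g.left :=
      SemidirectProduct.ext rfl (by simp [hr])
    conv_lhs => rw [hgi, chi_inl]
    have hne : (fun x => (g.left : E → ℂˣ) x / (g.left : E → ℂˣ) 1) ≠ 1 := by
      intro h1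
      exact hg ((mem_center_iff h g).2 ⟨hr, fun x => div_eq_one.1 (congrFun h1 x)⟩)
    have h2 := h.orth _ g.left.2.2 hne
    simp only [Units.val_div_eq_div_val] at h2
    rw [← Finset.sum_div, div_eq_zero_iff] at h2
    exact h2.resolve_right (Units.ne_zero _)
  · exact chi_of_right_ne h hr

theorem chi_isIrr [NeZero N] (h : IsOrthFun N E F) [Fintype (Grp h)] :
    IsIrrCharacter (Grp h) (chi h) := by
  classical
  refine Char.isIrrCharacter_iff_classInner.2
    ⟨CharInd.isCharacter_indFun _ (Char.isCharacter_of_irr (CharInd.irr_of_linHom (evalOne h))), ?_⟩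
  unfold classInner
  have hE : (Nat.card E : ℂ) ≠ 0 := Nat.cast_ne_zero.2 Nat.card_pos.ne'
  have hterm : ∀ g : Grp h, chi h g * conj (chi h g) =
      if g ∈ Subgroup.center (Grp h) then (Nat.card E : ℂ) ^ 2 else 0 := by
    intro g
    split_ifs with hg
    · rw [chi_center h hg, map_mul, Complex.conj_natCast]
      have hn : ‖(((g.left : E → ℂˣ) 1 : ℂˣ) : ℂ)‖ = 1 :=
        Complex.norm_eq_one_of_pow_eq_one (by
          rw [← Units.val_pow_eq_pow_val, g.left.2.1, Units.val_one]) (NeZero.ne N)
      rw [mul_mul_mul_comm, Complex.mul_conj', hn]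
      push_cast
      ring
    · rw [chi_not_center h hg, zero_mul]
  simp only [hterm]
  rw [Finset.sum_ite, Finset.sum_const_zero, add_zero, Finset.sum_const, nsmul_eq_mul,
    ← Fintype.card_subtype, ← Nat.card_eq_fintype_card]
  rw [show Nat.card {g : Grp h // g ∈ Subgroup.center (Grp h)} = N from card_center h,
    SemidirectProduct.card, card_scaled h]
  have hN : (N : ℂ) ≠ 0 := Nat.cast_ne_zero.2 (NeZero.ne N)
  push_cast
  field_simp

end Cfsg.Agent.CentralEmbed
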